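import Cfsg.Agent.AutPSp.Unique
set_option autoImplicit false

/-!
The exceptional automorphism of `PSp_4(2^f)`: the action on an orbit of six `2 × 2` minors.
-/

namespace CfsgLib.AutPSp

open Matrix
open CfsgLib.SpGeom

variable {F : Type*} [Field F]

local notation "V" => (Fin 2 ⊕ Fin 2 → F)
local notation "Sp" => Matrix.symplecticGroup (Fin 2) F
local notation "PSp'" => Cfsg.PSp 2 F
local notation "B" => Cfsg.sympForm 2 F
local notation "mat" A:max => ((A : Sp) : Matrix (Fin 2 ⊕ Fin 2) (Fin 2 ⊕ Fin 2) F)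

/-- The pair of coordinates attached to a new coordinate. -/
def pr : Fin 2 ⊕ Fin 2 → (Fin 2 ⊕ Fin 2) × (Fin 2 ⊕ Fin 2) :=
  Sum.elim ![(.inl 0, .inl 1), (.inl 0, .inr 1)] ![(.inr 0, .inr 1), (.inr 0, .inl 1)]

theorem pr_eq : pr (.inl 0) = (.inl 0, .inl 1) ∧ pr (.inl 1) = (.inl 0, .inr 1) ∧
    pr (.inr 0) = (.inr 0, .inr 1) ∧ pr (.inr 1) = (.inr 0, .inl 1) := ⟨rfl, rfl, rfl, rfl⟩

/-- The minors on the pairs `pr`. -/
def gMat (M : Matrix (Fin 2 ⊕ Fin 2) (Fin 2 ⊕ Fin 2) F) :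
    Matrix (Fin 2 ⊕ Fin 2) (Fin 2 ⊕ Fin 2) F :=
  Matrix.of fun a b =>
    M (pr a).1 (pr b).1 * M (pr a).2 (pr b).2 - M (pr a).1 (pr b).2 * M (pr a).2 (pr b).1

theorem gMat_apply (M : Matrix (Fin 2 ⊕ Fin 2) (Fin 2 ⊕ Fin 2) F) (a b : Fin 2 ⊕ Fin 2) :
    gMat M a b =
      M (pr a).1 (pr b).1 * M (pr a).2 (pr b).2 - M (pr a).1 (pr b).2 * M (pr a).2 (pr b).1 := rfl

theorem gMat_transpose (M : Matrix (Fin 2 ⊕ Fin 2) (Fin 2 ⊕ Fin 2) F) :
    gMat Mᵀ = (gMat M)ᵀ := by
  ext a b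
  simp only [gMat_apply, Matrix.transpose_apply]
  ring

theorem form_pr (a : Fin 2 ⊕ Fin 2) :
    B (Pi.single (pr a).1 1) (Pi.single (pr a).2 1) = 0 := by
  rcases a with a | a <;> fin_cases a <;>
    simp [pr, form_single_inl_right, form_single_inr_right]

theorem col_rel (A : Sp) (c : Fin 2 ⊕ Fin 2) :
    ((mat A) (.inl 0) (pr c).1 * (mat A) (.inr 0) (pr c).2 -
        (mat A) (.inl 0) (pr c).2 * (mat A) (.inr 0) (pr c).1) +
      ((mat A) (.inl 1) (pr c).1 * (mat A) (.inr 1) (pr c).2 -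
        (mat A) (.inl 1) (pr c).2 * (mat A) (.inr 1) (pr c).1) = 0 := by
  have h := form_mulVec A (Pi.single (pr c).1 1) (Pi.single (pr c).2 1)
  rw [form_pr, form_def, Fin.sum_univ_two] at h
  simp only [Matrix.mulVec_single_one, Matrix.col_apply] at h
  linear_combination -h

theorem row_rel (A : Sp) (a : Fin 2 ⊕ Fin 2) :
    ((mat A) (pr a).1 (.inl 0) * (mat A) (pr a).2 (.inr 0) -
        (mat A) (pr a).1 (.inr 0) * (mat A) (pr a).2 (.inl 0)) +
      ((mat A) (pr a).1 (.inl 1) * (mat A) (pr a).2 (.inr 1) -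
        (mat A) (pr a).1 (.inr 1) * (mat A) (pr a).2 (.inl 1)) = 0 := by
  have h := col_rel ⟨(mat A)ᵀ, SymplecticGroup.transpose_mem A.2⟩ a
  simp only [Matrix.transpose_apply] at h
  linear_combination h

theorem gMat_mul [CharP F 2] (A A' : Sp) : gMat (mat (A * A')) = gMat (mat A) * gMat (mat A') := by
  ext a c
  have h1 := row_rel A a
  have h2 := col_rel A' c
  rw [gMat_apply, coe_mul']
  simp only [Matrix.mul_apply, Fintype.sum_sum_type, Fin.sum_univ_two, gMat_apply, pr_eq.1, pr_eq.2.1,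
    pr_eq.2.2.1, pr_eq.2.2.2]
  generalize (pr a).1 = r1 at h1 ⊢
  generalize (pr a).2 = r2 at h1 ⊢
  generalize (pr c).1 = c1 at h2 ⊢
  generalize (pr c).2 = c2 at h2 ⊢
  linear_combination
    ((mat A') (.inl 1) c1 * (mat A') (.inr 1) c2 - (mat A') (.inl 1) c2 * (mat A') (.inr 1) c1) * h1
    - ((mat A) r1 (.inl 0) * (mat A) r2 (.inr 0) - (mat A) r1 (.inr 0) * (mat A) r2 (.inl 0)) * h2
    + (((mat A) r1 (.inl 0) * (mat A) r2 (.inr 0) - (mat A) r1 (.inr 0) * (mat A) r2 (.inl 0)) *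
      ((mat A') (.inl 0) c1 * (mat A') (.inr 0) c2 - (mat A') (.inl 0) c2 * (mat A') (.inr 0) c1)) *
        CharTwo.two_eq_zero (R := F)

theorem gMat_one : gMat (1 : Matrix (Fin 2 ⊕ Fin 2) (Fin 2 ⊕ Fin 2) F) = 1 := by
  ext a b
  rcases a with a | a <;> rcases b with b | b <;> fin_cases a <;> fin_cases b <;>
    simp [gMat_apply, pr, Matrix.one_apply]

theorem gMat_J [CharP F 2] : gMat (Matrix.J (Fin 2) F) = Matrix.J (Fin 2) F := by
  ext a b
  rcases a with a | a <;> rcases b with b | b <;> fin_cases a <;> fin_cases b <;>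
    simp [gMat_apply, pr, Matrix.J, Matrix.one_apply, CharTwo.neg_eq]

/-- The exceptional endomorphism of `Sp_4`. -/
def gamma [CharP F 2] : Sp →* Sp :=
  MonoidHom.mk' (fun A => ⟨gMat (mat A), by
      let J' : Sp := ⟨Matrix.J (Fin 2) F, SymplecticGroup.J_mem (Fin 2) F⟩
      let T : Sp := ⟨(mat A)ᵀ, SymplecticGroup.transpose_mem A.2⟩
      rw [SymplecticGroup.mem_iff, ← gMat_transpose, ← gMat_J (F := F)]
      rw [← gMat_mul A J', ← gMat_mul (A * J') T]
      exact congrArg gMat (SymplecticGroup.mem_iff.1 A.2)⟩)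
    fun A A' => Subtype.ext (gMat_mul A A')

theorem gamma_val [CharP F 2] (A : Sp) : mat (gamma A) = gMat (mat A) := rfl

theorem tv_apply (w : V) (c : F) (i j : Fin 2 ⊕ Fin 2) :
    (mat (tv w c)) i j =
      (if i = j then 1 else 0) + c * w i * Sum.elim (fun k => -w (.inr k)) (fun k => w (.inl k)) j := by
  have h := congrFun (tv_mulVec w c (Pi.single j 1)) i
  rw [Matrix.mulVec_single_one, Matrix.col_apply] at h
  rw [h, Pi.add_apply, Pi.smul_apply, smul_eq_mul, Pi.single_apply]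
  rcases j with j | j
  · rw [form_skew, form_single_inl_right, Sum.elim_inl]; ring
  · rw [form_skew, form_single_inr_right, Sum.elim_inr]; ring

set_option maxHeartbeats 2000000 in
theorem gMat_gMat_tv [CharP F 2] (w : V) (c : F) :
    gMat (gMat (mat (tv w c))) = (mat (tv w c)).map fun x => x ^ 2 := by
  have h2 : (2 : F) = 0 := CharTwo.two_eq_zero
  have h3 : (3 : F) = 1 := by linear_combination h2
  have h4 : (4 : F) = 0 := by linear_combination 2 * h2
  ext a b
  rcases a with a | a <;> rcases b with b | b <;> fin_cases a <;> fin_cases b <;>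
    simp [gMat_apply, pr, tv_apply, CharTwo.neg_eq, CharTwo.sub_eq_add] <;> ring_nf <;>
    reduce_mod_char!

variable [Fintype F]

/-- The Frobenius of a field of characteristic two. -/
noncomputable def frob [CharP F 2] : RingAut F :=
  RingEquiv.ofBijective (frobenius F 2) (Finite.injective_iff_bijective.1 (frobenius_inj F 2))

theorem gamma_gamma [CharP F 2] (A : Sp) : gamma (gamma A) = fieldSp frob A := by
  have h : (gamma.comp gamma).eqLocus (fieldSp (frob (F := F))).toMonoidHom = ⊤ :=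
    eq_top_of_tv _ fun w c => Subtype.ext (by
      change gMat (gMat (mat (tv w c))) = (mat (tv w c)).map frob
      rw [gMat_gMat_tv]
      rfl)
  have hA : A ∈ (gamma.comp gamma).eqLocus (fieldSp (frob (F := F))).toMonoidHom := by
    rw [h]; trivial
  exact hA

theorem gamma_bijective [CharP F 2] : Function.Bijective (gamma (F := F)) :=
  Finite.injective_iff_bijective.1 fun A A' h => (fieldSp frob).injective (by
    rw [← gamma_gamma, ← gamma_gamma, h])

/-- The exceptional automorphism of `PSp_4(2^f)`. -/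
noncomputable def graphPSp [CharP F 2] : MulAut PSp' :=
  descend (MulEquiv.ofBijective gamma gamma_bijective)

theorem graphPSp_proj [CharP F 2] (A : Sp) : graphPSp (proj A) = proj (gamma A) := rfl

theorem graphPSp_mul_self [CharP F 2] : graphPSp * graphPSp = fieldPSp (m := 2) (frob (F := F)) := by
  refine MulEquiv.ext fun x => ?_
  obtain ⟨A, rfl⟩ := proj_surjective x
  rw [MulAut.mul_apply, graphPSp_proj, graphPSp_proj, gamma_gamma, fieldPSp_proj]

theorem isShort_graphPSp [CharP F 2] :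
    IsShort (graphPSp (tvPt (Pi.single (Sum.inl 0) 1 : V))) := by
  refine ⟨Pi.single (Sum.inl 0) 1, Pi.single (Sum.inl 1) 1,
    by rw [form_single_inl_right]; simp, ?_, ?_⟩
  · refine (LinearIndependent.pair_iff' (Pi.single_ne_zero_iff.2 one_ne_zero)).2 fun a ha => ?_
    have := congrFun ha (Sum.inl 1)
    simp at this
  · rw [tvPt, graphPSp_proj]
    refine congrArg proj (ext_mulVec fun x => funext fun i => ?_)
    rw [gamma_val, eich_mulVec]
    simp only [Matrix.mulVec, dotProduct, Fintype.sum_sum_type, Fin.sum_univ_two, gMat_apply,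
      tv_apply, form_single_inl_right]
    rcases i with i | i <;> fin_cases i <;>
      simp [pr, CharTwo.neg_eq, CharTwo.sub_eq_add] <;> ring

theorem not_tv_of_short [CharP F 2] {x : PSp'} (h : IsShort x) {u : V} : x ≠ tvPt u := by
  obtain ⟨w, d, hd, hli, rfl⟩ := h
  intro he
  have hA := proj_injective_two (by omega : 0 < 2) CharTwo.two_eq_zero he
  have hli' := LinearIndependent.pair_iff.1 hli
  have e : ∀ y, B y w • d + B y d • w = B y u • u := fun y => by
    have h1 := congrArg (fun A : Sp => mat A *ᵥ y) hA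
    simpa only [eich_mulVec, tv_mulVec, one_mul, zero_mul, zero_add, add_assoc, add_right_inj] using h1
  have hnw : ∀ a : F, a • w ≠ d := fun a ha => one_ne_zero (neg_eq_zero.1
    (hli' a (-1) (by rw [ha, neg_one_smul, add_neg_cancel])).2)
  have hnd : ∀ a : F, a • d ≠ w := fun a ha => one_ne_zero (neg_eq_zero.1
    (hli' (-1) a (by rw [ha, neg_one_smul, neg_add_cancel])).1)
  obtain ⟨y1, hy1, hy1'⟩ := exists_sep_pair hnw
  obtain ⟨y2, hy2, hy2'⟩ := exists_sep_pair hnd
  have e1 := e y1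
  have e2 := e y2
  simp only [hy1, hy1', hy2, hy2', zero_smul, one_smul, zero_add, add_zero] at e1 e2
  obtain ⟨h1, -⟩ := hli' (B y2 u) (-(B y1 u)) (by
    rw [e1, e2, smul_smul, smul_smul]; module)
  rw [h1, zero_smul] at e2
  exact hnw 0 (absurd e2 (fun h0 => one_ne_zero (hli' 0 1 (by rw [h0]; simp)).2))

theorem not_pres_graphPSp [CharP F 2] : ¬ Pres (graphPSp (F := F)) := fun h => by
  obtain ⟨w, -, hw⟩ := h (Pi.single (Sum.inl 0) 1) (Pi.single_ne_zero_iff.2 one_ne_zero)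
  have h1 : graphPSp (tvPt (Pi.single (Sum.inl 0) 1 : V)) ∈ tbar w := by
    rw [← hw]
    exact Subgroup.mem_map_of_mem graphPSp.toMonoidHom (tv_mem_tbar _ 1)
  obtain ⟨_, ⟨c, rfl⟩, hc⟩ := h1
  obtain ⟨b, rfl⟩ := exists_sqrt_two (CharTwo.two_eq_zero (R := F)) c
  refine not_tv_of_short isShort_graphPSp (u := b • w) ?_
  rw [← hc, tvPt, tv_smul, mul_one]

theorem mul_graphPSp_mem [CharP F 2] {β : MulAut PSp'} (hβ : ¬ Pres β) : Pres (β * graphPSp) := by
  set v0 : V := Pi.single (Sum.inl 0) 1 with hv0def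
  have hv0 : v0 ≠ 0 := Pi.single_ne_zero_iff.2 one_ne_zero
  have h2 : (2 : F) = 0 := CharTwo.two_eq_zero
  have hβi : ¬ Pres β⁻¹ := fun h => hβ (by simpa using h.inv)
  rcases image_tv (le_refl 2) h2 β⁻¹ hv0 with ⟨w, hw, h⟩ | ⟨-, hs⟩
  · exact absurd (pres_of_one (le_refl 2) h2 hv0 hw h) hβi
  obtain ⟨w, d, hd, hli, hs⟩ := hs
  obtain ⟨w', d', hd', hli', hs'⟩ := isShort_graphPSp (F := F)
  have horth : ∀ (w d : V), B d w = 0 → ∀ i j : Fin 2, B (![w, d] i) (![w, d] j) = 0 :=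
    fun w d hd => Fin.forall_fin_two.2 ⟨Fin.forall_fin_two.2 ⟨form_self _, form_swap_zero hd⟩,
      Fin.forall_fin_two.2 ⟨hd, form_self _⟩⟩
  obtain ⟨g, hg⟩ := frameEich_mem_cls (0 : F) ⟨![w, d], hli, horth w d hd⟩ ⟨![w', d'], hli', horth w' d' hd'⟩
  change g * proj (eich w d 0 hd) * g⁻¹ = proj (eich w' d' 0 hd') at hg
  rw [← hs, ← hs', ← hv0def] at hg
  -- `conj g * β⁻¹` and the graph automorphism agree on one transvection
  have h1 : ((β * (MulAut.conj g)⁻¹ * graphPSp : MulAut PSp') : PSp' → PSp') (tvPt v0) = tvPt v0 := by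
    rw [MulAut.mul_apply, MulAut.mul_apply, ← hg, ← MulAut.conj_apply]
    change β ((MulAut.conj g).symm (MulAut.conj g (β.symm (tvPt v0)))) = tvPt v0
    rw [MulEquiv.symm_apply_apply, MulEquiv.apply_symm_apply]
  have hp : Pres (β * (MulAut.conj g)⁻¹ * graphPSp) := pres_of_one (le_refl 2) h2 hv0 hv0 h1
  have e : β * graphPSp = MulAut.conj (β g) * (β * (MulAut.conj g)⁻¹ * graphPSp) := by
    have : β * (MulAut.conj g)⁻¹ = (MulAut.conj (β g))⁻¹ * β := MulEquiv.ext fun x => by simp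
    rw [this, mul_assoc ((MulAut.conj (β g))⁻¹), mul_inv_cancel_left]
  rw [e]
  exact (pres_conj _).mul hp

theorem index_presSub [CharP F 2] : (presSub (F := F) (m := 2)).index = 2 := by
  refine Subgroup.index_eq_two_iff.2 ⟨graphPSp, fun β => ?_⟩
  simp only [mem_presSub]
  by_cases hβ : Pres β
  · exact Or.inr ⟨hβ, fun h => not_pres_graphPSp (by simpa using hβ.inv.mul h)⟩
  · exact Or.inl ⟨mul_graphPSp_mem hβ, hβ⟩

end CfsgLib.AutPSp
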