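import Cfsg.Agent.AutPSp.Field
import Cfsg.Agent.AutPSp.Exceptional
import Cfsg.Agent.LocalBalance.Core
set_option autoImplicit false

/-!
Local balance for field automorphisms of `PSp_2m(q)`.
-/

namespace CfsgLib.AutPSp

open Matrix
open CfsgLib.SpGeom MulAction
open scoped LinearAlgebra.Projectivization

variable {F : Type*} [Field F] {m : ℕ}

local notation "V" => (Fin m ⊕ Fin m → F)
local notation "Sp" => Matrix.symplecticGroup (Fin m) F
local notation "GS" => Cfsg.GSp m F
local notation "PSp'" => Cfsg.PSp m F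
local notation "B" => Cfsg.sympForm m F
local notation "mg" A:max => (((A : GS) : GL (Fin m ⊕ Fin m) F) : Matrix (Fin m ⊕ Fin m) (Fin m ⊕ Fin m) F)

/-- A normal subgroup of `Sp` is central or of index a power of the characteristic. -/
theorem center_or_index [Fintype F] (hm : 0 < m) {r : ℕ} [Fact r.Prime] [CharP F r]
    (M : Subgroup Sp) [M.Normal] : M ≤ Subgroup.center Sp ∨ ∃ k, M.index = r ^ k := by
  by_cases hc : M ≤ Subgroup.center Sp
  · exact Or.inl hc
  refine Or.inr ?_
  letI act : MulAction Sp (ℙ F V) := MulAction.compHom _ (spPerm m F)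
  have : MulAction.IsPreprimitive Sp (ℙ F V) := isPreprimitive_of hm fun A => ⟨A, fun _ => rfl⟩
  let I : IwasawaStructure Sp (ℙ F V) :=
    { T := fun p => tsub p.rep
      is_comm := fun p => inferInstance
      is_conj := fun A p => by
        have e : A • p = Projectivization.mk F ((A : Matrix (Fin m ⊕ Fin m) (Fin m ⊕ Fin m) F) *ᵥ p.rep)
            (mulVec_ne_zero A p.rep_nonzero) := by
          conv_lhs => rw [← Projectivization.mk_rep p]
          exact spPerm_mk A p.rep_nonzero
        obtain ⟨a, ha⟩ := Projectivization.exists_smul_eq_mk_rep F _ (mulVec_ne_zero A p.rep_nonzero)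
        rw [e, ← ha, Units.smul_def, tsub_smul_vec a.ne_zero, tsub_conj]
      is_generator := eq_top_of_tv _ fun w c => by
        rcases eq_or_ne w 0 with rfl | hw
        · rw [show tv (0 : V) c = 1 from ext_mulVec fun x => by simp [tv_mulVec]]
          exact one_mem _
        refine Subgroup.mem_iSup_of_mem (Projectivization.mk F w hw) ?_
        obtain ⟨a, ha⟩ := Projectivization.exists_smul_eq_mk_rep F w hw
        rw [← ha, Units.smul_def, tsub_smul_vec a.ne_zero]
        exact ⟨c, rfl⟩ }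
  have hfix : MulAction.fixedPoints M (ℙ F V) ≠ Set.univ := by
    intro h
    refine hc fun A hA => ?_
    rw [← spPerm_ker hm, MonoidHom.mem_ker]
    exact Equiv.ext fun p => (Set.eq_univ_iff_forall.1 h p) ⟨A, hA⟩
  have hcomm := I.commutator_le M hfix
  haveI : IsMulCommutative (Sp ⧸ M) := (Subgroup.Normal.quotient_commutative_iff_commutator_le).2 hcomm
  let S : Subgroup Sp :=
    { carrier := {g | g ^ r ∈ M}
      one_mem' := by simp
      mul_mem' := fun {a b} ha hb => by
        have ha' : (a : Sp ⧸ M) ^ r = 1 := by rw [← QuotientGroup.mk_pow]; exact (QuotientGroup.eq_one_iff _).2 ha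
        have hb' : (b : Sp ⧸ M) ^ r = 1 := by rw [← QuotientGroup.mk_pow]; exact (QuotientGroup.eq_one_iff _).2 hb
        refine (QuotientGroup.eq_one_iff _).1 ?_
        rw [QuotientGroup.mk_pow, QuotientGroup.mk_mul,
          Commute.mul_pow (IsMulCommutative.is_comm.comm _ _), ha', hb', one_mul]
      inv_mem' := fun {a} ha => by
        change (a⁻¹) ^ r ∈ M
        rw [inv_pow]; exact M.inv_mem ha }
  have hS : S = ⊤ := eq_top_of_tv S fun w c => by
    have hn : ∀ n : ℕ, tv w c ^ n = tv w (n • c) := by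
      intro n
      induction n with
      | zero => rw [pow_zero, zero_smul, tv_zero]
      | succ n ih => rw [pow_succ, ih, tv_mul, succ_nsmul]
    change tv w c ^ r ∈ M
    rw [hn, nsmul_eq_mul, CharP.cast_eq_zero, zero_mul, tv_zero]
    exact M.one_mem
  have hP : IsPGroup r (Sp ⧸ M) := fun g => by
    obtain ⟨g, rfl⟩ := QuotientGroup.mk_surjective g
    refine ⟨1, ?_⟩
    rw [pow_one, ← QuotientGroup.mk_pow]
    exact (QuotientGroup.eq_one_iff _).2 (show g ∈ S by rw [hS]; trivial)
  obtain ⟨k, hk⟩ := hP.exists_card_eq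
  exact ⟨k, by rw [Subgroup.index, hk]⟩

variable [Fintype F] {F₀ : Type*} [Field F₀] [Fintype F₀] {τ : RingAut F} {ι : F₀ →+* F}

/-- The subfield subgroup inside `Aut PSp_2m(q)`. -/
noncomputable def subHom (ι : F₀ →+* F) (m : ℕ) :
    Matrix.symplecticGroup (Fin m) F₀ →* MulAut (Cfsg.PSp m F) :=
  conjPSp.comp ((mapGS ι m).comp toGS)

theorem subHom_apply (s : Matrix.symplecticGroup (Fin m) F₀) :
    subHom ι m s = conjPSp (mapGS ι m (toGS s)) := rfl

theorem mapGS_toGS_tv (v : Fin m ⊕ Fin m → F₀) (c : F₀) :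
    mapGS ι m (toGS (tv v c)) = toGS (tv (ι ∘ v) (ι c)) := by
  refine Subtype.ext (Units.ext (Matrix.ext_of_mulVec_single fun i => ?_))
  have e : (Pi.single i 1 : V) = ι ∘ (Pi.single i 1 : Fin m ⊕ Fin m → F₀) := by
    funext j
    by_cases hj : j = i <;> simp [hj]
  rw [mapGS_val, e]
  change ι.mapMatrix (tv v c).1 *ᵥ _ = (tv (ι ∘ v) (ι c)).1 *ᵥ _
  have hL : ι.mapMatrix (tv v c).1 *ᵥ (ι ∘ (Pi.single i 1 : Fin m ⊕ Fin m → F₀)) =
      ι ∘ ((tv v c).1 *ᵥ (Pi.single i 1 : Fin m ⊕ Fin m → F₀)) := by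
    funext j
    exact (RingHom.map_mulVec ι _ _ j).symm
  rw [hL, tv_mulVec, tv_mulVec]
  funext j
  simp [form_def, map_sum, map_sub, map_mul]

theorem subHom_ker_le (hm : 2 ≤ m) :
    (subHom ι m).ker ≤ Subgroup.center (Matrix.symplecticGroup (Fin m) F₀) := by
  intro s hs
  rw [MonoidHom.mem_ker, subHom_apply, conjPSp_eq_one_iff hm] at hs
  obtain ⟨a, ha⟩ := hs
  have he : ∀ i k, ι (s.1 i k) = (a • (1 : Matrix (Fin m ⊕ Fin m) (Fin m ⊕ Fin m) F)) i k :=
    fun i k => congrFun (congrFun ha i) k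
  let i₀ : Fin m ⊕ Fin m := Sum.inl ⟨0, by omega⟩
  have hg : s.1 = s.1 i₀ i₀ • (1 : Matrix (Fin m ⊕ Fin m) (Fin m ⊕ Fin m) F₀) := by
    ext i k
    apply ι.injective
    rw [he, Matrix.smul_apply, Matrix.smul_apply, smul_eq_mul, smul_eq_mul, map_mul, he]
    simp only [Matrix.one_apply, Matrix.smul_apply, smul_eq_mul]
    split_ifs <;> simp
  refine mem_center_of_scalar (c := s.1 i₀ i₀) fun v => ?_
  conv_lhs => rw [hg, Matrix.smul_mulVec, Matrix.one_mulVec]

theorem center_le_subHom_ker (hm : 0 < m) :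
    Subgroup.center (Matrix.symplecticGroup (Fin m) F₀) ≤ (subHom ι m).ker := by
  intro s hs
  rw [MonoidHom.mem_ker, subHom_apply]
  rcases (CfsgLib.Symp.mem_center_iff hm s).1 hs with h | h
  · refine conjPSp_eq_one_of_scalar (a := 1) ?_
    rw [mapGS_val, one_smul]
    change ι.mapMatrix s.1 = 1
    rw [h, map_one]
  · refine conjPSp_eq_one_of_scalar (a := -1) ?_
    rw [mapGS_val, neg_one_smul]
    change ι.mapMatrix s.1 = -1
    rw [h, map_neg, map_one]

theorem subHom_commute (hm : 2 ≤ m) (hι : ∀ c, τ c = c ↔ c ∈ Set.range ι)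
    (s : Matrix.symplecticGroup (Fin m) F₀) :
    subHom ι m s * fieldPSp τ = fieldPSp τ * subHom ι m s :=
  commute_mapGS hm hι (toGS s)

theorem subHom_mem_inn (s : Matrix.symplecticGroup (Fin m) F₀) :
    subHom ι m s ∈ Cfsg.Inn PSp' := by
  have hmem : mg (mapGS ι m (toGS s)) ∈ Sp := by
    refine mem_of_form fun u v => ?_
    have h := (similitude_iff (ι.mapMatrix s.1) (1 : F)).2 (by
      have h1 := (similitude_iff s.1 (1 : F₀)).1 (fun x y => by rw [one_mul]; exact form_mulVec s x y)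
      rw [← J_map ι, show (ι.mapMatrix s.1)ᵀ = ι.mapMatrix s.1ᵀ from rfl, ← map_mul, ← map_mul, h1,
        one_smul, one_smul]) u v
    rwa [one_mul] at h
  refine ⟨proj ⟨_, hmem⟩, ?_⟩
  rw [← conjPSp_toGS, subHom_apply]
  exact congrArg conjPSp (Subtype.ext (Units.ext rfl))

/-- `σ` fixing the fixed field of `τ` is a power of `τ`. -/
theorem mem_zpowers_of_fix (hι : ∀ c, τ c = c ↔ c ∈ Set.range ι) {σ : RingAut F}
    (h : ∀ c : F₀, σ (ι c) = ι c) : σ ∈ Subgroup.zpowers τ := by
  haveI : Finite (RingAut F) := Finite.of_injective (fun τ => ⇑τ) DFunLike.coe_injective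
  let G := Subgroup.zpowers τ
  haveI : FaithfulSMul G F := ⟨fun {a b} h => Subtype.ext (RingEquiv.ext h)⟩
  have hfix : ∀ x : FixedPoints.subfield G F, σ x.1 = x.1 := fun x => by
    obtain ⟨c, hc⟩ := (hι x.1).1 (x.2 ⟨τ, Subgroup.mem_zpowers τ⟩)
    rw [← hc, h]
  let f : F →ₐ[FixedPoints.subfield G F] F :=
    { (σ : F →+* F) with commutes' := fun x => hfix x }
  obtain ⟨g, hg⟩ := (FixedPoints.toAlgHom_bijective G F).2 f
  have e : g.1 = σ := RingEquiv.ext fun x => DFunLike.congr_fun hg x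
  rw [← e]
  exact g.2

/-- The centraliser of the subfield subgroup is generated by the field automorphism. -/
theorem eq_field_of_centralises (hm : 2 ≤ m) (hι : ∀ c, τ c = c ↔ c ∈ Set.range ι)
    {n : MulAut PSp'} (hn : ∀ s, n * subHom ι m s = subHom ι m s * n) :
    ∃ σ ∈ Subgroup.zpowers τ, n = fieldPSp σ := by
  classical
  have hfixtv : ∀ (v : Fin m ⊕ Fin m → F₀) (c : F₀),
      n (proj (tv (ι ∘ v) (ι c))) = proj (tv (ι ∘ v) (ι c)) := by
    intro v c
    have h := hn (tv v c)
    rw [subHom_apply, mapGS_toGS_tv, conjPSp_toGS] at h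
    refine conj_injective hm ?_
    refine (mul_left_inj n).1 ?_
    rw [← h]
    exact MulEquiv.ext fun y => by simp
  let e : Fin m ⊕ Fin m → V := fun i => Pi.single i 1
  let e₀ : Fin m ⊕ Fin m → Fin m ⊕ Fin m → F₀ := fun i => Pi.single i 1
  have he : ∀ i, e i = ι ∘ e₀ i := fun i => funext fun j => by
    by_cases hj : j = i <;> simp [e, e₀, hj]
  let i₀ : Fin m ⊕ Fin m := Sum.inl ⟨0, by omega⟩
  have hne : ∀ i, e i ≠ 0 := fun i => Pi.single_ne_zero_iff.2 one_ne_zero
  have hn' : Pres n := by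
    by_cases h2 : (2 : F) = 0
    · refine pres_of_one hm h2 (hne i₀) (hne i₀) ?_
      rw [tvPt, he, ← map_one ι]
      exact hfixtv _ _
    · exact pres_all hm (Or.inr h2) n
  obtain ⟨g, σ, rfl⟩ := classify hm hn'
  have hpar : ∀ v : Fin m ⊕ Fin m → F₀, v ≠ 0 → ∃ a : F, semi g σ (ι ∘ v) = a • (ι ∘ v) := by
    intro v hv
    have hv' : ι ∘ v ≠ (0 : V) := fun h => hv (funext fun i => ι.injective
      ((congrFun h i).trans (map_zero ι).symm))
    have h := hfixtv v 1
    rw [map_one] at h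
    change std g σ (proj (tv (ι ∘ v) 1)) = _ at h
    rw [std_tv, map_one] at h
    obtain ⟨a, -, ha⟩ := eq_smul_of_proj_tv hm (semi_ne_zero g σ hv')
      (div_ne_zero one_ne_zero (mult g).ne_zero) h
    exact ⟨a, ha⟩
  choose a ha using fun i => hpar (e₀ i) (Pi.single_ne_zero_iff.2 one_ne_zero)
  have hb : ∀ i, σ ∘ e i = e i := fun i => funext fun j => by
    by_cases hj : j = i <;> simp [e, hj]
  have hai : ∀ i, mg g *ᵥ e i = a i • e i := fun i => by
    have h := ha i
    rwa [← he, semi, hb] at h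
  have ha0 : ∀ i, a i ≠ 0 := fun i h0 =>
    semi_ne_zero g σ (hne i) (by rw [semi, hb, hai, h0, zero_smul])
  have key : ∀ i, i ≠ i₀ → ∀ c : F₀, σ (ι c) * a i = a i₀ * ι c := fun i hi c => by
    obtain ⟨b, hbb⟩ := hpar (e₀ i₀ + c • e₀ i) (fun h0 => by
      simpa [e₀, hi.symm] using congrFun h0 i₀)
    have e1 : (ι ∘ (e₀ i₀ + c • e₀ i) : V) = e i₀ + ι c • e i := by
      funext j
      simp [he, map_add, map_mul]
    have e2 : σ ∘ (e i₀ + ι c • e i : V) = e i₀ + σ (ι c) • e i := by
      funext j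
      have h1 := congrFun (hb i₀) j
      have h2 := congrFun (hb i) j
      simp only [Function.comp_apply] at h1 h2
      simp [map_add, map_mul, h1, h2]
    rw [e1, semi, e2, Matrix.mulVec_add, Matrix.mulVec_smul, hai, hai] at hbb
    have q1 := congrFun hbb i₀
    have q2 := congrFun hbb i
    simp [e, hi, hi.symm] at q1 q2
    rw [q2, q1]
  let i₁ : Fin m ⊕ Fin m := Sum.inr ⟨0, by omega⟩
  have hall : ∀ i, a i = a i₀ := fun i => by
    rcases eq_or_ne i i₀ with rfl | hi
    · rfl
    · have := key i hi 1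
      rwa [map_one, map_one, one_mul, mul_one] at this
  have hscal : mg g = a i₀ • (1 : Matrix (Fin m ⊕ Fin m) (Fin m ⊕ Fin m) F) :=
    Matrix.ext_of_mulVec_single fun i => by
      change mg g *ᵥ e i = _
      rw [hai, hall, Matrix.smul_mulVec, Matrix.one_mulVec]
  refine ⟨σ, mem_zpowers_of_fix hι fun c => mul_right_cancel₀ (ha0 i₀) ?_, by
    rw [conjPSp_eq_one_of_scalar hscal, one_mul]⟩
  conv_lhs => rw [← hall i₁, key i₁ Sum.inr_ne_inl c, mul_comm]

/-- A prime dividing the order of the fixed points divides the subfield subgroup. -/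
theorem dvd_card_range (hm : 2 ≤ m) (hι : ∀ c, τ c = c ↔ c ∈ Set.range ι) {p r : ℕ} [Fact p.Prime]
    [Fact r.Prime] [CharP F r] (hpr : p ≠ r)
    (hd : p ∣ Nat.card ↥(MonoidHom.eqLocus (fieldPSp (m := m) τ).toMonoidHom (MonoidHom.id PSp'))) :
    p ∣ Nat.card (subHom ι m).range := by
  haveI : CharP F₀ r := (RingHom.charP_iff ι ι.injective r).2 inferInstance
  rcases eq_or_ne p 2 with rfl | hp2
  · -- an involution
    have hchar : (2 : F₀) ≠ 0 := fun h => hpr ((Nat.prime_dvd_prime_iff_eq (Fact.out : r.Prime) Nat.prime_two).1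
      ((CharP.cast_eq_zero_iff F₀ r 2).1 (by exact_mod_cast h))).symm
    let d : Fin m ⊕ Fin m → F₀ :=
      Sum.elim (fun i => if i.val = 0 then -1 else 1) (fun i => if i.val = 0 then -1 else 1)
    have hmem : Matrix.diagonal d ∈ Matrix.symplecticGroup (Fin m) F₀ := mem_of_form fun u v => by
      simp only [form_def, Matrix.mulVec_diagonal, d, Sum.elim_inl, Sum.elim_inr]
      exact Finset.sum_congr rfl fun i _ => by split_ifs <;> ring
    set s : Matrix.symplecticGroup (Fin m) F₀ := ⟨Matrix.diagonal d, hmem⟩ with hs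
    have hs2 : s ^ 2 = 1 := ext_mulVec fun v => funext fun i => by
      rw [pow_two, mul_mulVec', one_mulVec']
      rcases i with i | i <;>
      · simp only [hs, Matrix.mulVec_diagonal, d, Sum.elim_inl, Sum.elim_inr]
        split_ifs <;> ring
    have hne : subHom ι m s ≠ 1 := fun h => hchar (by
      rcases (CfsgLib.Symp.mem_center_iff (by omega) s).1 (subHom_ker_le hm (MonoidHom.mem_ker.2 h))
        with h1 | h1
      · have h2 := congrFun (congrFun h1 (Sum.inl ⟨0, by omega⟩)) (Sum.inl ⟨0, by omega⟩)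
        simp [hs, d] at h2
        linear_combination -h2
      · have h2 := congrFun (congrFun h1 (Sum.inl ⟨1, by omega⟩)) (Sum.inl ⟨1, by omega⟩)
        simp [hs, d] at h2
        linear_combination h2)
    have h2 : orderOf (subHom ι m s) = 2 :=
      orderOf_eq_prime (by rw [← map_pow, hs2, map_one]) hne
    rw [← h2]
    exact Subgroup.orderOf_dvd_natCard _ ⟨s, rfl⟩
  · set H := (conjPSp (F := F) (m := m)).range ⊓ Subgroup.centralizer {fieldPSp (m := m) τ} with hH
    set E := MonoidHom.eqLocus (fieldPSp (m := m) τ).toMonoidHom (MonoidHom.id PSp') with hE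
    let φ : E →* H := (MulAut.conj.comp E.subtype).codRestrict H fun k => ⟨inn_le_range ⟨k.1, rfl⟩,
      Subgroup.mem_centralizer_singleton_iff.2 (MulEquiv.ext fun y => by
        have hk : fieldPSp τ k.1 = k.1 := k.2
        simp [map_mul, hk])⟩
    have hEH : Nat.card E ∣ Nat.card H := Subgroup.card_dvd_of_injective φ fun a b h =>
      Subtype.ext (conj_injective hm (congrArg Subtype.val h))
    obtain ⟨eq⟩ := centralizer_equiv (m := m) hm hι
    have hker : (Cfsg.Geo.scalars (Fin m ⊕ Fin m) F₀).subgroupOf (Cfsg.GSp m F₀) =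
        (conjPSp (F := F₀) (m := m)).ker := by
      ext g
      rw [Subgroup.mem_subgroupOf, Cfsg.Geo.mem_scalars_iff, MonoidHom.mem_ker, conjPSp_eq_one_iff hm]
      refine ⟨fun ⟨c, hc⟩ => ⟨c, hc⟩, fun ⟨c, hc⟩ => ?_⟩
      have hc0 : c ≠ 0 := fun h0 => by
        rw [h0, zero_smul] at hc
        haveI : Nonempty (Fin m ⊕ Fin m) := ⟨Sum.inl ⟨0, by omega⟩⟩
        exact g.1.det_ne_zero (by rw [hc, Matrix.det_zero])
      exact ⟨Units.mk0 c hc0, hc⟩
    have hH0 : Nat.card H = Nat.card (Matrix.symplecticGroup (Fin m) F₀) := by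
      rw [← card_range_conjPSp (F := F₀) hm, Nat.card_congr eq.toEquiv]
      exact Nat.card_congr ((QuotientGroup.quotientMulEquivOfEq hker).trans
        (QuotientGroup.quotientKerEquivRange _)).toEquiv
    have hsp := Subgroup.card_eq_card_quotient_mul_card_subgroup (subHom ι m).ker
    rw [Nat.card_congr (QuotientGroup.quotientKerEquivRange (subHom ι m)).toEquiv] at hsp
    have hd' : p ∣ Nat.card (subHom ι m).range * Nat.card (subHom ι m).ker := by
      rw [← hsp, ← hH0]
      exact hd.trans hEH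
    refine ((Fact.out : p.Prime).dvd_mul.1 hd').resolve_right fun h => hp2 ?_
    have h1 := h.trans (Subgroup.card_dvd_of_le (subHom_ker_le (ι := ι) hm))
    rw [card_center_Sp (by omega)] at h1
    split_ifs at h1
    · exact absurd (Nat.eq_one_of_dvd_one h1) (Fact.out : p.Prime).ne_one
    · exact (Nat.prime_dvd_prime_iff_eq Fact.out Nat.prime_two).1 h1

/-- Local balance for a standard field automorphism of prime order. -/
theorem core_field_iff (hm : 2 ≤ m) {p r : ℕ} [Fact p.Prime] [Fact r.Prime] [CharP F r] (hpr : p ≠ r)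
    (hι : ∀ c, τ c = c ↔ c ∈ Set.range ι) (hτ : τ ^ p = 1) (A : Subgroup (MulAut PSp'))
    (hinn : ∀ k : PSp', MulAut.conj k ∈ A) :
    Cfsg.pPrimeCore p ↥(A ⊓ Subgroup.centralizer {fieldPSp τ}) ≠ ⊥ ↔
      Nat.Coprime p (Nat.card ↥(MonoidHom.eqLocus (fieldPSp (m := m) τ).toMonoidHom (MonoidHom.id PSp'))) := by
  constructor
  · intro h
    rw [(Fact.out : p.Prime).coprime_iff_not_dvd]
    intro hd
    refine h (CfsgLib.LocalBalance.core_eq_bot p A _ (conjPSp (F := F) (m := m)).range (subHom ι m).range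
      (range_conjPSp_normal hm) ?_ ?_ ?_ ?_ ?_)
    · rintro _ ⟨s, rfl⟩
      exact ⟨_, rfl⟩
    · rintro _ ⟨s, rfl⟩
      obtain ⟨k, hk⟩ := subHom_mem_inn (ι := ι) (m := m) s
      exact ⟨hk ▸ hinn k, Subgroup.mem_centralizer_singleton_iff.2 (subHom_commute hm hι s)⟩
    · intro n hn
      obtain ⟨σ, hσ, rfl⟩ := eq_field_of_centralises hm hι fun s => hn _ ⟨s, rfl⟩
      rw [← map_pow]
      obtain ⟨k, rfl⟩ := Subgroup.mem_zpowers_iff.1 hσ
      rw [← zpow_natCast, ← _root_.zpow_mul, mul_comm, _root_.zpow_mul, zpow_natCast, hτ, _root_.one_zpow, map_one]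
    · rintro _ ⟨g, rfl⟩ hg _ ⟨s, rfl⟩
      obtain ⟨g₀, hg₀⟩ := exists_descend_of_commute hm hι hg
      refine ⟨conjSp g₀ s, ?_⟩
      rw [hg₀, subHom_apply, subHom_apply, ← map_inv, ← map_mul, ← map_mul, ← map_inv (mapGS ι m),
        ← map_mul (mapGS ι m), ← map_mul (mapGS ι m)]
      exact congrArg (fun x => conjPSp (mapGS ι m x)) (Subtype.ext (Units.ext rfl))
    · intro M hM hMR hMp
      haveI : CharP F₀ r := (RingHom.charP_iff ι ι.injective r).2 inferInstance
      have hn : (M.comap (subHom ι m)).Normal := ⟨fun y hy s => by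
        rw [Subgroup.mem_comap, map_mul, map_mul, map_inv]
        exact hMR _ ⟨s, rfl⟩ _ hy⟩
      rcases center_or_index (r := r) (by omega) (M.comap (subHom ι m)) with hc | ⟨k, hk⟩
      · rw [Subgroup.eq_bot_iff_forall]
        intro y hy
        obtain ⟨s, rfl⟩ := hM hy
        exact MonoidHom.mem_ker.1 (center_le_subHom_ker (by omega) (hc hy))
      · exfalso
        rw [Subgroup.index_comap] at hk
        have h2 : M.relIndex (subHom ι m).range * Nat.card M = Nat.card (subHom ι m).range := by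
          rw [Subgroup.relIndex, ← Nat.card_congr (Subgroup.subgroupOfEquivOfLe hM).toEquiv,
            Subgroup.index_mul_card]
        have h3 := dvd_card_range hm hι hpr hd
        rw [← h2, hk] at h3
        rcases (Fact.out : p.Prime).dvd_mul.1 h3 with h4 | h4
        · exact hpr ((Nat.prime_dvd_prime_iff_eq Fact.out Fact.out).1
            ((Fact.out : p.Prime).dvd_of_dvd_pow h4))
        · exact hMp h4
  · intro h
    let v : V := Pi.single (Sum.inl ⟨0, by omega⟩) 1
    refine CfsgLib.LocalBalance.core_ne_bot_of_coprime p (conj_injective hm) A hinn _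
      ⟨proj (tv v 1), ?_, ?_⟩ h
    · intro h1
      obtain ⟨a, ha, ha'⟩ := eq_smul_of_proj_tv (m := m) hm (v := v) (w := 0) (c := 1) (d := 0)
        (Pi.single_ne_zero_iff.2 one_ne_zero) one_ne_zero (h1.trans (by rw [tv_zero, map_one]))
      rw [smul_zero] at ha'
      exact Pi.single_ne_zero_iff.2 one_ne_zero ha'
    · have e : fieldPSp (m := m) τ = std 1 τ := by rw [std, map_one, one_mul]
      rw [e, std_tv]
      have hv : semi (1 : GS) τ v = v := by
        rw [semi]
        refine (Matrix.one_mulVec _).trans ?_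
        funext j
        by_cases hj : j = Sum.inl ⟨0, by omega⟩ <;> simp [v, hj]
      have hmu : (mult (1 : GS) : F) = 1 := mult_eq (by omega) fun a b => by
        rw [one_mul, show mg (1 : GS) *ᵥ a = a from Matrix.one_mulVec a,
          show mg (1 : GS) *ᵥ b = b from Matrix.one_mulVec b]
      rw [hv, hmu, map_one, div_one]

/-- A non-inner-diagonal automorphism of prime order `p ≠ r` is a field automorphism. -/
theorem exists_field_form (hm : 2 ≤ m) {p r : ℕ} [Fact p.Prime] [Fact r.Prime] [CharP F r] (hpr : p ≠ r)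
    (x : MulAut PSp') (hord : orderOf x = p) (hnot : ¬ Cfsg.IsInnerDiagonalAutPSp x) :
    ∃ (α : MulAut PSp') (τ : RingAut F), τ ≠ 1 ∧ τ ^ p = 1 ∧ orderOf τ = p ∧ α * x * α⁻¹ = fieldPSp τ := by
  classical
  have hpres : Pres x := by
    by_cases h : m ≠ 2 ∨ (2 : F) ≠ 0
    · exact pres_all hm h x
    push Not at h
    obtain ⟨rfl, h2⟩ := h
    have hr2 : r = 2 := (Nat.prime_dvd_prime_iff_eq (Fact.out : r.Prime) Nat.prime_two).1
      ((CharP.cast_eq_zero_iff F r 2).1 (by exact_mod_cast h2))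
    subst hr2
    obtain ⟨k, hk⟩ := (Fact.out : p.Prime).odd_of_ne_two hpr
    have hsq : x ^ (2 * (k + 1)) ∈ presSub (F := F) (m := 2) := by
      rw [pow_mul]
      exact pow_mem (Subgroup.sq_mem_of_index_two index_presSub x) _
    rwa [show 2 * (k + 1) = p + 1 by omega, pow_succ, ← hord, pow_orderOf_eq_one, one_mul] at hsq
  obtain ⟨g, τ, rfl⟩ := classify hm hpres
  have hpow : (conjPSp g * fieldPSp τ) ^ p = 1 := by rw [← hord]; exact pow_orderOf_eq_one _
  have hτ1 : τ ≠ 1 := fun h => hnot (by rw [h, map_one, mul_one]; exact isInnerDiagonalAutPSp g)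
  have hτp : τ ^ p = 1 := by
    rw [pow_conj_mul_field] at hpow
    exact (decomposition_zero hm hpow).1
  have hτo : orderOf τ = p := orderOf_eq_prime hτp hτ1
  obtain ⟨f, hr, hF⟩ := FiniteField.card F r
  obtain ⟨hdvd, hfield⟩ := CfsgLib.AutPSL.fixed_field_facts.{_, 0} hr hF τ
  haveI : Fintype (GaloisField r ((f : ℕ) / p)) := Fintype.ofFinite _
  obtain ⟨ι, hι⟩ := hfield (GaloisField r ((f : ℕ) / p)) (by
    rw [hτo, ← Nat.card_eq_fintype_card, GaloisField.card]
    rw [hτo] at hdvd
    have := Nat.div_pos (Nat.le_of_dvd f.pos hdvd) (Fact.out : p.Prime).pos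
    omega)
  obtain ⟨k, hk⟩ := exists_conj_field hm hι g (by rw [hτo]; exact hpow)
  refine ⟨(conjPSp k)⁻¹, τ, hτ1, hτp, hτo, ?_⟩
  rw [hk]
  group

end CfsgLib.AutPSp
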