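import Cfsg.Agent.AutPSp.Unique
import Cfsg.Agent.AutPSL.FixedField
import Cfsg.Agent.AutPSL.Descent
import Cfsg.Agent.AutPSL.FieldAut
import Cfsg.Agent.Forms.SympEmbed
set_option autoImplicit false

/-!
Field automorphisms of `PSp_2m(q)`: descent, centralisers, class splitting.
-/

namespace CfsgLib.AutPSp

open Matrix
open CfsgLib.SpGeom

variable {F : Type*} [Field F] {m : ℕ}

local notation "V" => (Fin m ⊕ Fin m → F)
local notation "Sp" => Matrix.symplecticGroup (Fin m) F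
local notation "GS" => Cfsg.GSp m F
local notation "PSp'" => Cfsg.PSp m F
local notation "B" => Cfsg.sympForm m F
local notation "mat" A:max => ((A : Sp) : Matrix (Fin m ⊕ Fin m) (Fin m ⊕ Fin m) F)
local notation "mg" A:max => (((A : GS) : GL (Fin m ⊕ Fin m) F) : Matrix (Fin m ⊕ Fin m) (Fin m ⊕ Fin m) F)

theorem form_congr {R : Type*} [Field R] (M : Matrix (Fin m ⊕ Fin m) (Fin m ⊕ Fin m) R)
    (u v : Fin m ⊕ Fin m → R) :
    Cfsg.sympForm m R (M *ᵥ u) (M *ᵥ v) = u ⬝ᵥ (Mᵀ * Matrix.J (Fin m) R * M) *ᵥ v := by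
  unfold Cfsg.sympForm
  rw [← Matrix.mulVec_mulVec, ← Matrix.mulVec_mulVec, Matrix.dotProduct_mulVec u,
    ← Matrix.mulVec_transpose, Matrix.transpose_transpose]

/-- Similitudes as matrices. -/
theorem similitude_iff {R : Type*} [Field R] (M : Matrix (Fin m ⊕ Fin m) (Fin m ⊕ Fin m) R) (k : R) :
    (∀ u v, Cfsg.sympForm m R (M *ᵥ u) (M *ᵥ v) = k * Cfsg.sympForm m R u v) ↔
      Mᵀ * Matrix.J (Fin m) R * M = k • Matrix.J (Fin m) R := by
  constructor
  · intro h
    ext i j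
    have h1 := h (Pi.single i 1) (Pi.single j 1)
    rw [form_congr] at h1
    unfold Cfsg.sympForm at h1
    simpa [Matrix.mulVec_single_one, single_dotProduct] using h1
  · intro h u v
    rw [form_congr, h, Matrix.smul_mulVec, dotProduct_smul]
    rfl

theorem J_map {R S : Type*} [Field R] [Field S] (ι : R →+* S) :
    ι.mapMatrix (Matrix.J (Fin m) R) = Matrix.J (Fin m) S := by
  ext i j; rcases i with i | i <;> rcases j with j | j <;>
    simp [Matrix.J, Matrix.one_apply, apply_ite ι]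

theorem map_smul_J {R S : Type*} [Field R] [Field S] (ι : R →+* S) (c : R) :
    ι.mapMatrix (c • Matrix.J (Fin m) R) = ι c • Matrix.J (Fin m) S := by
  ext i j
  have e : ι (Matrix.J (Fin m) R i j) = Matrix.J (Fin m) S i j := congrFun₂ (J_map ι) i j
  simp [e]

theorem mult_matrix (g : GS) :
    (mg g)ᵀ * Matrix.J (Fin m) F * mg g = (mult g : F) • Matrix.J (Fin m) F :=
  (similitude_iff _ _).1 (mult_spec g)

theorem mem_GS_of_matrix {g : GL (Fin m ⊕ Fin m) F} {k : F} (hk : k ≠ 0)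
    (h : g.1ᵀ * Matrix.J (Fin m) F * g.1 = k • Matrix.J (Fin m) F) : g ∈ GS :=
  ⟨Units.mk0 k hk, (similitude_iff _ _).2 h⟩

/-- The scalar similitudes. -/
def scalarGS : Fˣ →* GS where
  toFun u := ⟨GeneralLinearGroup.scalar (Fin m ⊕ Fin m) u, u * u, fun x y => by
    have e : (GeneralLinearGroup.scalar (Fin m ⊕ Fin m) u).1 =
        (u : F) • (1 : Matrix (Fin m ⊕ Fin m) (Fin m ⊕ Fin m) F) := by
      simp [GeneralLinearGroup.scalar, smul_one_eq_diagonal]
    rw [e, Matrix.smul_mulVec, Matrix.smul_mulVec, Matrix.one_mulVec, Matrix.one_mulVec,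
      form_smul_left, form_smul_right, Units.val_mul, mul_assoc]⟩
  map_one' := Subtype.ext (map_one _)
  map_mul' a b := Subtype.ext (map_mul _ _ _)

theorem scalarGS_val (u : Fˣ) :
    mg (scalarGS u) = (u : F) • (1 : Matrix (Fin m ⊕ Fin m) (Fin m ⊕ Fin m) F) := by
  simp [scalarGS, GeneralLinearGroup.scalar, smul_one_eq_diagonal]

theorem conjPSp_scalarGS (u : Fˣ) : conjPSp (scalarGS (F := F) (m := m) u) = 1 :=
  conjPSp_eq_one_of_scalar (scalarGS_val u)

theorem conjPSp_eq_iff [Finite F] (hm : 2 ≤ m) {g h : GS} :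
    conjPSp g = conjPSp h ↔ ∃ u : Fˣ, g = scalarGS u * h := by
  haveI := Fintype.ofFinite F
  constructor
  · intro e
    obtain ⟨a, ha⟩ := (conjPSp_eq_one_iff hm).1
      (show conjPSp (g * h⁻¹) = 1 by rw [map_mul, map_inv, e, mul_inv_cancel])
    have ha0 : a ≠ 0 := fun h0 => by
      rw [h0, zero_smul] at ha
      let i₀ : Fin m ⊕ Fin m := Sum.inl ⟨0, by omega⟩
      haveI : Nonempty (Fin m ⊕ Fin m) := ⟨i₀⟩
      exact (g * h⁻¹).1.det_ne_zero (by rw [ha, Matrix.det_zero])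
    refine ⟨Units.mk0 a ha0, ?_⟩
    have : g * h⁻¹ = scalarGS (Units.mk0 a ha0) :=
      Subtype.ext (Units.ext (ha.trans (scalarGS_val (Units.mk0 a ha0)).symm))
    rw [← this, inv_mul_cancel_right]
  · rintro ⟨u, rfl⟩
    rw [map_mul, conjPSp_scalarGS, one_mul]

theorem fieldPSp_injective [Finite F] (hm : 2 ≤ m) :
    Function.Injective (fieldPSp (F := F) (m := m)) := by
  haveI := Fintype.ofFinite F
  rw [injective_iff_map_eq_one]
  intro τ hτ
  exact eq_one_of_conjPSp_eq_fieldPSp hm (g := 1) (by rw [hτ, map_one])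

theorem orderOf_of_isFieldAutClass [Finite F] (hm : 2 ≤ m) {x α : MulAut PSp'} {τ : RingAut F}
    (h : α * x * α⁻¹ = fieldPSp τ) : orderOf τ = orderOf x := by
  rw [← orderOf_injective _ (fieldPSp_injective (m := m) hm) τ, ← h]
  exact orderOf_injective (MulAut.conj α).toMonoidHom (MulAut.conj α).injective x

/-- The twisted power. -/
def normSeqS (g : GS) (τ : RingAut F) : ℕ → GS
  | 0 => 1
  | k + 1 => g * fieldGS τ (normSeqS g τ k)

theorem pow_conj_mul_field (g : GS) (τ : RingAut F) :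
    ∀ k : ℕ, (conjPSp g * fieldPSp τ) ^ k = conjPSp (normSeqS g τ k) * fieldPSp (τ ^ k)
  | 0 => by simp [normSeqS]
  | k + 1 => by
    rw [pow_succ', pow_conj_mul_field g τ k, mul_assoc, ← mul_assoc (fieldPSp τ), fieldPSp_mul_conjPSp,
      normSeqS, map_mul, pow_succ' τ, map_mul]
    simp only [mul_assoc]

/-- The general linear group of the coordinates. -/
def toFin (m : ℕ) : Fin m ⊕ Fin m ≃ Fin (m + m) := finSumFinEquiv

/-- Reindexing to `GL (Fin (m+m))`. -/
def reGL : GL (Fin m ⊕ Fin m) F →* GL (Fin (m + m)) F :=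
  Units.map (Matrix.reindexAlgEquiv F F (toFin m)).toRingEquiv.toMonoidHom

theorem reGL_val (g : GL (Fin m ⊕ Fin m) F) :
    (reGL g).1 = Matrix.reindex (toFin m) (toFin m) g.1 := rfl

theorem reGL_injective : Function.Injective (reGL (F := F) (m := m)) := fun a b h =>
  Units.ext ((Matrix.reindex (toFin m) (toFin m)).injective (congrArg Units.val h))

theorem reGL_surjective : Function.Surjective (reGL (F := F) (m := m)) := fun y =>
  ⟨Units.map (Matrix.reindexAlgEquiv F F (toFin m)).symm.toRingEquiv.toMonoidHom y,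
    Units.ext ((Matrix.reindexAlgEquiv F F (toFin m)).apply_symm_apply y.1)⟩

theorem reGL_fieldGL (τ : RingAut F) (g : GS) :
    reGL (fieldGS τ g).1 = CfsgLib.AutPSL.fieldGL τ (reGL g.1) :=
  Units.ext (Matrix.ext fun _ _ => rfl)

theorem reGL_normSeqS (g : GS) (τ : RingAut F) :
    ∀ k, reGL (normSeqS g τ k).1 = CfsgLib.AutPSL.normSeq (reGL g.1) τ k
  | 0 => map_one _
  | k + 1 => by
    change reGL (g.1 * (fieldGS τ (normSeqS g τ k)).1) = _
    rw [map_mul, reGL_fieldGL, reGL_normSeqS g τ k]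
    rfl

theorem multHom_fieldGS (hm : 0 < m) (τ : RingAut F) (g : GS) :
    multHom hm (fieldGS τ g) = Units.map (τ : F →* F) (multHom hm g) := by
  refine Units.ext ?_
  change (mult (fieldGS τ g) : F) = τ (mult g : F)
  refine mult_eq hm fun u v => ?_
  have e : ∀ w : V, w = τ ∘ (τ.symm ∘ w) := fun w => by funext i; simp
  rw [fieldGS_val]
  conv_lhs => rw [e u, e v, map_mulVec, map_mulVec, form_map, mult_spec, map_mul, ← form_map, ← e u, ← e v]

theorem multHom_normSeqS (hm : 0 < m) (g : GS) (τ : RingAut F) :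
    ∀ k, multHom hm (normSeqS g τ k) = CfsgLib.AutPSL.normHom τ k (multHom hm g)
  | 0 => by simp [normSeqS, CfsgLib.AutPSL.normHom]
  | k + 1 => by
    refine Units.ext ?_
    rw [normSeqS, map_mul, multHom_fieldGS, multHom_normSeqS hm g τ k, Units.val_mul, Units.coe_map,
      MonoidHom.coe_coe, CfsgLib.AutPSL.normHom_val, CfsgLib.AutPSL.normHom_val, map_prod,
      Finset.prod_range_succ', pow_zero, RingAut.one_apply, mul_comm]
    refine congrArg (· * (multHom hm g : F)) (Finset.prod_congr rfl fun i _ => ?_)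
    rw [pow_succ', RingAut.mul_apply]

theorem normSeqS_mul_scalar (g : GS) (τ : RingAut F) (a : Fˣ) :
    ∀ k, normSeqS (scalarGS a * g) τ k = scalarGS (CfsgLib.AutPSL.normHom τ k a) * normSeqS g τ k
  | 0 => by simp [normSeqS, CfsgLib.AutPSL.normHom]
  | k + 1 => by
    have hf : ∀ c : Fˣ, fieldGS τ (scalarGS (F := F) (m := m) c) = scalarGS (Units.map (τ : F →* F) c) :=
      fun c => Subtype.ext (Units.ext (by
        rw [fieldGS_val, scalarGS_val, scalarGS_val]
        ext i j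
        simp [Matrix.one_apply, apply_ite τ]))
    have hc : ∀ (c : Fˣ) (x : GS), scalarGS c * x = x * scalarGS c := fun c x =>
      Subtype.ext (Units.ext (by
        change mg (scalarGS c * x) = mg (x * scalarGS c)
        rw [GS_coe_mul, GS_coe_mul, scalarGS_val, Matrix.smul_mul, Matrix.mul_smul, Matrix.one_mul, Matrix.mul_one]))
    have hN : CfsgLib.AutPSL.normHom τ (k + 1) a = a * Units.map (τ : F →* F) (CfsgLib.AutPSL.normHom τ k a) := by
      refine Units.ext ?_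
      rw [Units.val_mul, Units.coe_map, MonoidHom.coe_coe, CfsgLib.AutPSL.normHom_val,
        CfsgLib.AutPSL.normHom_val, map_prod, Finset.prod_range_succ', pow_zero, RingAut.one_apply, mul_comm]
      refine congrArg ((a : F) * ·) (Finset.prod_congr rfl fun i _ => ?_)
      rw [pow_succ', RingAut.mul_apply]
    rw [normSeqS, normSeqS_mul_scalar g τ a k, map_mul, hf, normSeqS, hN, map_mul]
    simp only [mul_assoc]
    rw [← mul_assoc g, ← hc, mul_assoc]

variable [Fintype F] {F₀ : Type*} [Field F₀] [Fintype F₀] {τ : RingAut F} {ι : F₀ →+* F}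

/-- Extension of scalars `GSp_2m(q₀) → GSp_2m(q)`. -/
def mapGS (ι : F₀ →+* F) (m : ℕ) : Cfsg.GSp m F₀ →* Cfsg.GSp m F where
  toFun g := ⟨Units.map ι.mapMatrix.toMonoidHom g.1, by
    obtain ⟨c, hc⟩ := g.2
    refine mem_GS_of_matrix (k := ι c) ((map_ne_zero ι).2 c.ne_zero) ?_
    change (ι.mapMatrix g.1.1)ᵀ * Matrix.J (Fin m) F * ι.mapMatrix g.1.1 = _
    rw [← J_map ι, show (ι.mapMatrix g.1.1)ᵀ = ι.mapMatrix g.1.1ᵀ from rfl, ← map_mul, ← map_mul,
      (similitude_iff g.1.1 (c : F₀)).1 hc, map_smul_J, J_map]⟩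
  map_one' := Subtype.ext (map_one _)
  map_mul' a b := Subtype.ext (map_mul _ _ _)

theorem mapGS_val (g : Cfsg.GSp m F₀) : mg (mapGS ι m g) = ι.mapMatrix g.1.1 := rfl

theorem fieldGS_mapGS (hι : ∀ c, τ c = c ↔ c ∈ Set.range ι) (g : Cfsg.GSp m F₀) :
    fieldGS τ (mapGS ι m g) = mapGS ι m g := by
  refine Subtype.ext (Units.ext (Matrix.ext fun i j => ?_))
  exact (hι _).2 ⟨_, rfl⟩

/-- A `τ`-fixed similitude comes from the fixed field. -/
theorem exists_mapGS_eq (hm : 0 < m) (hι : ∀ c, τ c = c ↔ c ∈ Set.range ι) {g : GS}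
    (h : fieldGS τ g = g) : ∃ g₀ : Cfsg.GSp m F₀, mapGS ι m g₀ = g := by
  have he : ∀ i j, ∃ d, ι d = (mg g) i j := fun i j =>
    (hι _).1 (congrFun (congrFun (congrArg (fun x : GS => mg x) h) i) j)
  choose d hd using he
  have hM : ι.mapMatrix (Matrix.of d) = mg g := Matrix.ext hd
  have hdet : (Matrix.of d).det ≠ 0 := fun h0 => g.1.det_ne_zero (by
    change (mg g).det = 0
    rw [← hM, ← RingHom.map_det, h0, map_zero])
  obtain ⟨c, hc⟩ := (hι _).1 (show τ (mult g : F) = (mult g : F) by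
    have := congrArg Units.val (multHom_fieldGS hm τ g)
    rw [h] at this
    exact this.symm)
  refine ⟨⟨GeneralLinearGroup.mkOfDetNeZero _ hdet,
    mem_GS_of_matrix (k := c) (fun h0 => (mult g).ne_zero (by rw [← hc, h0, map_zero])) ?_⟩,
    Subtype.ext (Units.ext hM)⟩
  change (Matrix.of d)ᵀ * Matrix.J (Fin m) F₀ * Matrix.of d = _
  apply Matrix.map_injective ι.injective
  change ι.mapMatrix _ = ι.mapMatrix _
  rw [map_mul, map_mul, hM, J_map, show ι.mapMatrix (Matrix.of d)ᵀ = (ι.mapMatrix (Matrix.of d))ᵀ from rfl,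
    hM, mult_matrix, map_smul_J, hc]

/-- Descent: a similitude cocycle is a similitude coboundary. -/
theorem exists_coboundary_GS (hm : 0 < m) (hι : ∀ c, τ c = c ↔ c ∈ Set.range ι) (g : GS)
    (hN : normSeqS g τ (orderOf τ) = 1) : ∃ h : GS, g = h * (fieldGS τ h)⁻¹ := by
  classical
  obtain ⟨h', hh'⟩ := CfsgLib.AutPSL.exists_coboundary τ (reGL g.1)
    (by rw [← reGL_normSeqS, hN]; exact map_one _)
  obtain ⟨h, rfl⟩ := reGL_surjective h'
  let fgl : GL (Fin m ⊕ Fin m) F →* GL (Fin m ⊕ Fin m) F :=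
    Units.map (τ : F →+* F).mapMatrix.toMonoidHom
  have hh : g.1 = h * (fgl h)⁻¹ := reGL_injective (by
    rw [hh', map_mul, map_inv]
    rfl)
  have hgh : g.1 * fgl h = h := by rw [hh, inv_mul_cancel_right]
  obtain ⟨b, hb⟩ := CfsgLib.AutPSL.exists_div_of_norm_one τ (a := multHom hm g)
    (by rw [← multHom_normSeqS, hN, map_one])
  change (mult g : F) * τ (b : F) = (b : F) at hb
  set G := h.1ᵀ * Matrix.J (Fin m) F * h.1 with hG
  set G' := (b : F)⁻¹ • G with hG'
  have hJτ : (τ : F →+* F).mapMatrix (Matrix.J (Fin m) F) = Matrix.J (Fin m) F := J_map _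
  have hGτ : (mult g : F) • (τ : F →+* F).mapMatrix G = G := by
    have e : h.1 = mg g * (τ : F →+* F).mapMatrix h.1 := (congrArg Units.val hgh).symm
    conv_rhs => rw [hG, e, Matrix.transpose_mul, Matrix.mul_assoc, Matrix.mul_assoc,
      ← Matrix.mul_assoc (Matrix.J (Fin m) F), ← Matrix.mul_assoc (mg g)ᵀ,
      ← Matrix.mul_assoc (mg g)ᵀ, mult_matrix, Matrix.smul_mul, Matrix.mul_smul]
    rw [hG, map_mul, map_mul, hJτ, Matrix.mul_assoc]
    rfl
  have hfix : ∀ i j, τ (G' i j) = G' i j := fun i j => by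
    have e := congrFun (congrFun hGτ i) j
    simp only [Matrix.smul_apply, smul_eq_mul, RingHom.mapMatrix_apply, Matrix.map_apply] at e
    change (mult g : F) * τ (G i j) = G i j at e
    simp only [hG', Matrix.smul_apply, smul_eq_mul, map_mul, map_inv₀]
    have hb0 := b.ne_zero
    have hτb : τ (b : F) ≠ 0 := (map_ne_zero τ).2 hb0
    field_simp
    linear_combination (τ (G i j)) * (-hb) + (τ (b : F)) * e
  have he : ∀ i j, ∃ d, ι d = G' i j := fun i j => (hι _).1 (hfix i j)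
  choose d hd using he
  have hM : ι.mapMatrix (Matrix.of d) = G' := Matrix.ext hd
  have hGdet : G'.det ≠ 0 := by
    rw [hG', hG, Matrix.det_smul, Matrix.det_mul, Matrix.det_mul, Matrix.det_transpose]
    refine mul_ne_zero (pow_ne_zero _ (inv_ne_zero b.ne_zero)) ?_
    refine mul_ne_zero (mul_ne_zero h.det_ne_zero ?_) h.det_ne_zero
    exact (Matrix.isUnit_det_J (Fin m) F).ne_zero
  have hdet : (Matrix.of d).det ≠ 0 := fun h0 => hGdet (by rw [← hM, ← RingHom.map_det, h0, map_zero])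
  let B₀ : LinearMap.BilinForm F₀ (Fin m ⊕ Fin m → F₀) := Matrix.toBilin' (Matrix.of d)
  have hB₀ : ∀ u v, B₀ u v = u ⬝ᵥ (Matrix.of d) *ᵥ v := fun u v => Matrix.toBilin'_apply' _ u v
  have hA : B₀.IsAlt := fun v => by
    rw [hB₀]
    apply ι.injective
    rw [map_zero]
    have e : ι (v ⬝ᵥ (Matrix.of d) *ᵥ v) = (ι ∘ v) ⬝ᵥ G' *ᵥ (ι ∘ v) := by
      rw [← hM, RingHom.map_dotProduct]
      congr 1
      funext i
      exact RingHom.map_mulVec ι _ _ i
    rw [e, hG', Matrix.smul_mulVec, dotProduct_smul, hG, ← Matrix.mulVec_mulVec,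
      ← Matrix.mulVec_mulVec, Matrix.dotProduct_mulVec, ← Matrix.mulVec_transpose,
      Matrix.transpose_transpose]
    exact smul_eq_zero_of_right _ (form_self (h.1 *ᵥ (ι ∘ v)))
  have hS : B₀.SeparatingLeft := fun u hu => by
    have h1 : u ᵥ* (Matrix.of d) = 0 := by
      refine dotProduct_eq_zero _ fun w => ?_
      rw [← Matrix.dotProduct_mulVec, ← hB₀]
      exact hu w
    exact Matrix.eq_zero_of_vecMul_eq_zero hdet h1
  obtain ⟨e₀, he₀⟩ := CfsgLib.Forms.exists_symp_coord (n := m)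
    (by rw [Module.finrank_fintype_fun_eq_card, Fintype.card_sum, Fintype.card_fin]; omega) B₀ hA hS
  set P := LinearMap.toMatrix' e₀.toLinearMap with hP
  have hPd : Pᵀ * Matrix.J (Fin m) F₀ * P = Matrix.of d := by
    ext i j
    have e1 := he₀ (Pi.single i 1) (Pi.single j 1)
    rw [hB₀] at e1
    have e2 : ∀ v, e₀ v = P *ᵥ v := fun v => (LinearMap.toMatrix'_mulVec _ v).symm
    rw [e2, e2, form_congr] at e1
    simpa [Matrix.mulVec_single_one, single_dotProduct] using e1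
  have hPdet : P.det ≠ 0 := fun h0 => hdet (by rw [← hPd, Matrix.det_mul, h0, mul_zero])
  let P' : GL (Fin m ⊕ Fin m) F := Units.map ι.mapMatrix.toMonoidHom
    (GeneralLinearGroup.mkOfDetNeZero P hPdet)
  have hP' : P'.1ᵀ * Matrix.J (Fin m) F * P'.1 = G' := by
    change (ι.mapMatrix P)ᵀ * Matrix.J (Fin m) F * ι.mapMatrix P = G'
    rw [← J_map ι, show (ι.mapMatrix P)ᵀ = ι.mapMatrix Pᵀ from rfl, ← map_mul, ← map_mul, hPd, hM]
  have hmem : h * P'⁻¹ ∈ GS := by
    refine mem_GS_of_matrix (k := (b : F)) b.ne_zero ?_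
    have hGb : G = (b : F) • (P'.1ᵀ * Matrix.J (Fin m) F * P'.1) := by
      rw [hP', hG', smul_smul, mul_inv_cancel₀ b.ne_zero, one_smul]
    have hPP : P'.1 * (P'⁻¹).1 = 1 := by rw [← Units.val_mul, mul_inv_cancel, Units.val_one]
    rw [Units.val_mul, Matrix.transpose_mul, Matrix.mul_assoc, Matrix.mul_assoc,
      ← Matrix.mul_assoc (Matrix.J (Fin m) F), ← Matrix.mul_assoc h.1ᵀ, ← Matrix.mul_assoc h.1ᵀ, ← hG, hGb,
      Matrix.smul_mul, Matrix.mul_smul]
    congr 1
    rw [Matrix.mul_assoc, hPP, Matrix.mul_one, ← Matrix.mul_assoc, ← Matrix.transpose_mul, hPP,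
      Matrix.transpose_one, Matrix.one_mul]
  refine ⟨⟨h * P'⁻¹, hmem⟩, Subtype.ext ?_⟩
  change g.1 = h * P'⁻¹ * (fgl (h * P'⁻¹))⁻¹
  have hfP : fgl P' = P' := Units.ext (Matrix.ext fun i j => (hι _).2 ⟨_, rfl⟩)
  rw [hh, map_mul, map_inv, hfP, _root_.mul_inv_rev, inv_inv, mul_assoc, inv_mul_cancel_left]

/-- Lang's theorem for a field automorphism. -/
theorem exists_conj_field (hm : 2 ≤ m) (hι : ∀ c, τ c = c ↔ c ∈ Set.range ι) (g : GS)
    (h : (conjPSp g * fieldPSp τ) ^ orderOf τ = 1) :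
    ∃ k : GS, conjPSp g * fieldPSp τ = conjPSp k * fieldPSp τ * (conjPSp k)⁻¹ := by
  rw [pow_conj_mul_field, pow_orderOf_eq_one, map_one, mul_one] at h
  obtain ⟨u, hu⟩ := (conjPSp_eq_iff hm).1 (h.trans (map_one _).symm)
  rw [mul_one] at hu
  let i₀ : Fin m ⊕ Fin m := Sum.inl ⟨0, by omega⟩
  have huτ : τ (u : F) = (u : F) := by
    have h1 := CfsgLib.AutPSL.fieldGL_normSeq (reGL g.1) τ (pow_orderOf_eq_one τ)
    rw [← reGL_normSeqS, hu, ← reGL_fieldGL, ← map_inv, ← map_mul, ← map_mul] at h1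
    have h2 := congrArg Units.val (reGL_injective h1)
    rw [Units.val_mul, Units.val_mul] at h2
    change mg (fieldGS τ (scalarGS u)) = (g.1⁻¹).1 * mg (scalarGS u) * g.1.1 at h2
    rw [fieldGS_val, scalarGS_val, Matrix.mul_smul, Matrix.mul_one, Matrix.smul_mul,
      ← Units.val_mul, inv_mul_cancel, Units.val_one] at h2
    have h3 := congrFun (congrFun h2 i₀) i₀
    simpa using h3
  obtain ⟨a, ha⟩ := CfsgLib.AutPSL.exists_norm_eq τ (c := u) huτ
  set g' := scalarGS a⁻¹ * g with hg'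
  have hN : normSeqS g' τ (orderOf τ) = 1 := by
    rw [hg', normSeqS_mul_scalar, map_inv, ha, hu, ← map_mul, inv_mul_cancel, map_one]
  obtain ⟨k, hk⟩ := exists_coboundary_GS (by omega) hι g' hN
  refine ⟨k, ?_⟩
  have hgg : conjPSp g = conjPSp g' := by rw [hg', map_mul, conjPSp_scalarGS, one_mul]
  rw [hgg, hk, map_mul, map_inv, mul_assoc, mul_assoc, mul_right_inj, inv_mul_eq_iff_eq_mul, ← mul_assoc,
    eq_mul_inv_iff_mul_eq, fieldPSp_mul_conjPSp]

theorem commute_fieldPSp_iff (hm : 2 ≤ m) (g : GS) (τ : RingAut F) :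
    conjPSp g * fieldPSp τ = fieldPSp τ * conjPSp g ↔ ∃ u : Fˣ, fieldGS τ g = scalarGS u * g := by
  rw [fieldPSp_mul_conjPSp, mul_left_inj, eq_comm, conjPSp_eq_iff hm]

theorem commute_mapGS (hm : 2 ≤ m) (hι : ∀ c, τ c = c ↔ c ∈ Set.range ι) (g : Cfsg.GSp m F₀) :
    conjPSp (mapGS ι m g) * fieldPSp τ = fieldPSp τ * conjPSp (mapGS ι m g) :=
  (commute_fieldPSp_iff hm _ τ).2 ⟨1, by rw [map_one, one_mul, fieldGS_mapGS hι]⟩

/-- An element centralising the field automorphism comes from the fixed field. -/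
theorem exists_descend_of_commute (hm : 2 ≤ m) (hι : ∀ c, τ c = c ↔ c ∈ Set.range ι) {g : GS}
    (h : conjPSp g * fieldPSp τ = fieldPSp τ * conjPSp g) :
    ∃ g₀ : Cfsg.GSp m F₀, conjPSp g = conjPSp (mapGS ι m g₀) := by
  obtain ⟨u, hu⟩ := (commute_fieldPSp_iff hm g τ).1 h
  have e : ∀ i j, τ ((mg g) i j) = (u : F) * (mg g) i j := fun i j => by
    have := congrFun (congrFun (congrArg (fun x : GS => mg x) hu) i) j
    rw [fieldGS_val, GS_coe_mul, scalarGS_val, Matrix.smul_mul, Matrix.one_mul] at this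
    simpa using this
  have hpow : ∀ k i j, (τ ^ k) ((mg g) i j) = (CfsgLib.AutPSL.normHom τ k u : F) * (mg g) i j := by
    intro k
    induction k with
    | zero => intro i j; simp [CfsgLib.AutPSL.normHom]
    | succ k ih =>
      intro i j
      rw [pow_succ, RingAut.mul_apply, e, map_mul, ih, CfsgLib.AutPSL.normHom_val,
        CfsgLib.AutPSL.normHom_val, Finset.prod_range_succ]
      ring
  have hNu : CfsgLib.AutPSL.normHom τ (orderOf τ) u = 1 := by
    let i₀ : Fin m ⊕ Fin m := Sum.inl ⟨0, by omega⟩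
    obtain ⟨j, hj⟩ : ∃ j, (mg g) i₀ j ≠ 0 := by
      by_contra hno
      push Not at hno
      exact g.1.det_ne_zero (Matrix.det_eq_zero_of_row_eq_zero i₀ hno)
    have h1 := hpow (orderOf τ) i₀ j
    rw [pow_orderOf_eq_one, RingAut.one_apply] at h1
    refine Units.ext (mul_right_cancel₀ hj ?_)
    rw [← h1, Units.val_one, one_mul]
  obtain ⟨b, hb⟩ := CfsgLib.AutPSL.exists_div_of_norm_one τ hNu
  have hfix : fieldGS τ (scalarGS b * g) = scalarGS b * g := by
    refine Subtype.ext (Units.ext (Matrix.ext fun i j => ?_))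
    rw [fieldGS_val, GS_coe_mul, scalarGS_val, Matrix.smul_mul, Matrix.one_mul]
    simp only [Matrix.map_apply, Matrix.smul_apply, smul_eq_mul, map_mul, e]
    linear_combination ((mg g) i j) * hb
  obtain ⟨g₀, hg₀⟩ := exists_mapGS_eq (by omega) hι hfix
  exact ⟨g₀, by rw [hg₀, map_mul, conjPSp_scalarGS, one_mul]⟩

/-- The centraliser of a standard field automorphism. -/
theorem centralizer_equiv (hm : 2 ≤ m) (hι : ∀ c, τ c = c ↔ c ∈ Set.range ι) :
    Nonempty (↥((conjPSp (F := F) (m := m)).range ⊓ Subgroup.centralizer {fieldPSp τ}) ≃*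
      Cfsg.PGSp m F₀) := by
  let ψ : Cfsg.GSp m F₀ →*
      ↥((conjPSp (F := F) (m := m)).range ⊓ Subgroup.centralizer {fieldPSp τ}) :=
    (conjPSp.comp (mapGS ι m)).codRestrict _ fun g => ⟨⟨_, rfl⟩,
      Subgroup.mem_centralizer_singleton_iff.mpr (commute_mapGS hm hι g)⟩
  have hs : Function.Surjective ψ := by
    rintro ⟨_, ⟨g, rfl⟩, hg⟩
    obtain ⟨g₀, e⟩ := exists_descend_of_commute hm hι (Subgroup.mem_centralizer_singleton_iff.mp hg)
    exact ⟨g₀, Subtype.ext e.symm⟩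
  have hk : ψ.ker = (Cfsg.Geo.scalars (Fin m ⊕ Fin m) F₀).subgroupOf (Cfsg.GSp m F₀) := by
    ext g
    rw [MonoidHom.mem_ker, Subtype.ext_iff, Subgroup.mem_subgroupOf, Cfsg.Geo.mem_scalars_iff]
    change conjPSp (mapGS ι m g) = 1 ↔ _
    rw [conjPSp_eq_one_iff hm]
    constructor
    · rintro ⟨a, ha⟩
      have he : ∀ i k, ι (g.1.1 i k) = (a • (1 : Matrix (Fin m ⊕ Fin m) (Fin m ⊕ Fin m) F)) i k :=
        fun i k => congrFun (congrFun ha i) k
      let i₀ : Fin m ⊕ Fin m := Sum.inl ⟨0, by omega⟩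
      have hg : g.1.1 = g.1.1 i₀ i₀ • (1 : Matrix (Fin m ⊕ Fin m) (Fin m ⊕ Fin m) F₀) := by
        ext i k
        apply ι.injective
        rw [he, Matrix.smul_apply, Matrix.smul_apply, smul_eq_mul, smul_eq_mul, map_mul, he]
        simp only [Matrix.one_apply, Matrix.smul_apply, smul_eq_mul]
        split_ifs <;> simp
      have h0 : g.1.1 i₀ i₀ ≠ 0 := by
        intro h0
        rw [h0, zero_smul] at hg
        haveI : Nonempty (Fin m ⊕ Fin m) := ⟨i₀⟩
        exact g.1.det_ne_zero (by rw [hg, Matrix.det_zero])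
      exact ⟨Units.mk0 _ h0, hg⟩
    · rintro ⟨c, hc⟩
      refine ⟨ι (c : F₀), ?_⟩
      rw [mapGS_val, hc]
      ext i k
      simp [Matrix.one_apply]
      try split_ifs <;> simp
  exact ⟨((QuotientGroup.quotientMulEquivOfEq hk.symm).trans
    (QuotientGroup.quotientKerEquivOfSurjective ψ hs)).symm⟩

omit [Fintype F] in
theorem multHom_scalarGS (hm : 0 < m) (u : Fˣ) :
    multHom (F := F) hm (scalarGS u) = u ^ 2 := by
  refine Units.ext (mult_eq hm fun x y => ?_)
  rw [scalarGS_val, Matrix.smul_mulVec, Matrix.smul_mulVec, Matrix.one_mulVec, Matrix.one_mulVec,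
    form_smul_left, form_smul_right, Units.val_pow_eq_pow_val, pow_two, mul_assoc]

omit [Fintype F] in
theorem multHom_toGS (hm : 0 < m) (s : Sp) : multHom (F := F) hm (toGS s) = 1 :=
  Units.ext (mult_eq hm fun x y => by rw [Units.val_one, one_mul]; exact form_mulVec s x y)

theorem conjPSp_mem_inn_iff (hm : 2 ≤ m) (g : GS) :
    conjPSp g ∈ Cfsg.Inn PSp' ↔
      multHom (by omega) g ∈ (powMonoidHom 2 : Fˣ →* Fˣ).range := by
  constructor
  · rintro ⟨x, hx⟩
    obtain ⟨s, rfl⟩ := proj_surjective x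
    rw [← conjPSp_toGS] at hx
    obtain ⟨u, hu⟩ := (conjPSp_eq_iff hm).1 hx.symm
    refine ⟨u, ?_⟩
    rw [hu, map_mul, multHom_scalarGS, multHom_toGS, mul_one]
    rfl
  · rintro ⟨u, hu⟩
    set g' := (scalarGS u)⁻¹ * g with hg'
    have h1 : multHom (by omega) g' = 1 := by
      rw [hg', map_mul, map_inv, multHom_scalarGS, ← hu]
      exact inv_mul_cancel _
    have hmem : mg g' ∈ Sp := mem_of_form fun x y => by
      rw [mult_spec, show mult g' = 1 from h1, Units.val_one, one_mul]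
    refine ⟨proj ⟨mg g', hmem⟩, ?_⟩
    rw [← conjPSp_toGS, show toGS ⟨mg g', hmem⟩ = g' from Subtype.ext (Units.ext rfl),
      hg', map_mul, map_inv, conjPSp_scalarGS, inv_one, one_mul]

theorem range_eq_inn (hm : 2 ≤ m) (h2 : (2 : F) = 0) :
    (conjPSp (F := F) (m := m)).range = Cfsg.Inn PSp' := by
  refine le_antisymm ?_ inn_le_range
  rintro _ ⟨g, rfl⟩
  rw [conjPSp_mem_inn_iff hm]
  obtain ⟨b, hb⟩ := exists_sqrt_two h2 (mult g : F)
  have hb0 : b ≠ 0 := fun h0 => (mult g).ne_zero (by rw [hb, h0]; simp)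
  exact ⟨Units.mk0 b hb0, Units.ext hb.symm⟩

theorem range_conjPSp_normal (hm : 2 ≤ m) :
    ((conjPSp (F := F) (m := m)).range).Normal := by
  by_cases h2 : (2 : F) = 0
  · rw [range_eq_inn hm h2]; infer_instance
  · obtain ⟨χ, -, hker, -⟩ := exists_partHom (F := F) hm
    refine ⟨fun x hx α => ?_⟩
    have hx' : (⟨x, range_le_presSub hx⟩ : presSub (F := F) (m := m)) ∈ χ.ker := by
      rw [hker, Subgroup.mem_subgroupOf]; exact hx
    have hα : α ∈ presSub (F := F) (m := m) := pres_all hm (Or.inr h2) α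
    have h := (MonoidHom.normal_ker χ).conj_mem _ hx' ⟨α, hα⟩
    rw [hker, Subgroup.mem_subgroupOf] at h
    exact h

theorem splitClassCount_field (hm : 2 ≤ m) (hι : ∀ c, τ c = c ↔ c ∈ Set.range ι)
    [(Cfsg.Inn PSp').Normal] (hdvd : (Fintype.card F₀ - 1) ∣ (Fintype.card F - 1)) :
    Cfsg.splitClassCount (conjPSp (F := F) (m := m)).range (Cfsg.Inn PSp') (fieldPSp τ) =
      Nat.gcd 2 ((Fintype.card F - 1) / (Fintype.card F₀ - 1)) := by
  classical
  have hm0 : 0 < m := by omega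
  let j : F₀ˣ →* Fˣ := Units.map (ι : F₀ →* F)
  let P : Subgroup Fˣ := (powMonoidHom 2 : Fˣ →* Fˣ).range ⊔ j.range
  let π : GS →* Fˣ ⧸ P := (QuotientGroup.mk' P).comp (multHom hm0)
  have hπ : (conjPSp (F := F) (m := m)).rangeRestrict.ker ≤ π.ker := by
    intro g hg
    rw [MonoidHom.ker_rangeRestrict, MonoidHom.mem_ker] at hg
    obtain ⟨u, hu⟩ := (conjPSp_eq_iff hm).1 (hg.trans (map_one _).symm)
    rw [mul_one] at hu
    exact (QuotientGroup.eq_one_iff _).mpr
      (Subgroup.mem_sup_left ⟨u, by rw [hu, multHom_scalarGS]; rfl⟩)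
  let θ := MonoidHom.liftOfSurjective (conjPSp (F := F) (m := m)).rangeRestrict
    (MonoidHom.rangeRestrict_surjective _) ⟨π, hπ⟩
  have hθ : ∀ g, θ ((conjPSp (F := F) (m := m)).rangeRestrict g) = π g := fun g =>
    MonoidHom.liftOfRightInverse_comp_apply _ _ (Function.rightInverse_surjInv _) ⟨π, hπ⟩ g
  have hmap : ∀ g₀ : Cfsg.GSp m F₀, multHom hm0 (mapGS ι m g₀) = j (multHom hm0 g₀) := fun g₀ => by
    refine Units.ext (mult_eq hm0 ((similitude_iff _ _).2 ?_))
    rw [mapGS_val, ← J_map ι, show (ι.mapMatrix g₀.1.1)ᵀ = ι.mapMatrix g₀.1.1ᵀ from rfl, ← map_mul,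
      ← map_mul, mult_matrix g₀, map_smul_J, J_map]
    rfl
  rw [CfsgLib.AutPSL.splitClassCount_eq_card (A := Fˣ ⧸ P) _ _ _ inn_le_range θ ?_ ?_]
  · rw [← Subgroup.index_eq_card]
    exact CfsgLib.AutPSL.index_scalars_sup_subfield ι hdvd 2
  · intro a
    obtain ⟨a, rfl⟩ := QuotientGroup.mk_surjective a
    obtain ⟨g, rfl⟩ := multHom_surjective (F := F) hm0 a
    exact ⟨_, hθ g⟩
  · intro h
    obtain ⟨g, rfl⟩ := MonoidHom.rangeRestrict_surjective _ h
    rw [hθ]
    constructor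
    · intro hg
      obtain ⟨u, hu, v, ⟨b, rfl⟩, huv⟩ := Subgroup.mem_sup.mp ((QuotientGroup.eq_one_iff _).mp hg)
      obtain ⟨g₀, rfl⟩ := multHom_surjective (F := F₀) hm0 b
      have hk : conjPSp (g * (mapGS ι m g₀)⁻¹) ∈ Cfsg.Inn PSp' := by
        rw [conjPSp_mem_inn_iff hm, map_mul, map_inv, hmap, ← huv, mul_inv_cancel_right]
        exact hu
      refine ⟨_, hk, conjPSp (mapGS ι m g₀), ⟨⟨_, rfl⟩,
        Subgroup.mem_centralizer_singleton_iff.mpr (commute_mapGS hm hι g₀)⟩, ?_⟩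
      rw [← map_mul, inv_mul_cancel_right]
      rfl
    · rintro ⟨_, ⟨y, rfl⟩, _, ⟨⟨g₁, rfl⟩, hc⟩, e⟩
      obtain ⟨s, rfl⟩ := proj_surjective y
      obtain ⟨g₀, hg₁⟩ := exists_descend_of_commute hm hι (Subgroup.mem_centralizer_singleton_iff.mp hc)
      rw [hg₁, ← conjPSp_toGS, ← map_mul] at e
      rw [← hθ, show (conjPSp (F := F) (m := m)).rangeRestrict g =
        (conjPSp (F := F) (m := m)).rangeRestrict (toGS s * mapGS ι m g₀) from Subtype.ext e, hθ]
      refine (QuotientGroup.eq_one_iff _).mpr ?_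
      rw [map_mul, hmap, multHom_toGS, one_mul]
      exact Subgroup.mem_sup_right ⟨_, rfl⟩

theorem gcd_two_geom {p e r : ℕ} (hp : p.Prime) (he : 1 ≤ e) (hr : 0 < r) :
    Nat.gcd 2 ((p ^ (e * r) - 1) / (p ^ e - 1)) = Nat.gcd (Nat.gcd 2 (p ^ (e * r) - 1)) r := by
  have h2 : 2 ≤ p ^ e := hp.two_le.trans (Nat.le_self_pow (by omega) p)
  rw [pow_mul, ← Nat.geomSum_eq h2]
  have hdiv : (∑ i ∈ Finset.range r, (p ^ e) ^ i) ∣ ((p ^ e) ^ r - 1) := by
    refine Dvd.intro (p ^ e - 1) ?_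
    rw [Nat.geomSum_eq h2, Nat.div_mul_cancel]
    exact Nat.sub_one_dvd_pow_sub_one _ _
  rcases hp.eq_two_or_odd' with rfl | hodd
  · have hg : Nat.gcd 2 (((2 : ℕ) ^ e) ^ r - 1) = 1 := by
      refine Nat.coprime_two_left.2 ?_
      rw [← pow_mul]
      exact Nat.Even.sub_odd Nat.one_le_two_pow
        (Nat.even_pow.2 ⟨even_two, Nat.mul_ne_zero (by omega) (by omega)⟩) odd_one
    rw [hg, Nat.gcd_one_left]
    exact Nat.eq_one_of_dvd_one (hg ▸ Nat.dvd_gcd (Nat.gcd_dvd_left _ _)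
      ((Nat.gcd_dvd_right _ _).trans hdiv))
  · have ho : Odd (p ^ e) := hodd.pow
    have hev : 2 ∣ (p ^ e) ^ r - 1 := by
      obtain ⟨k, hk⟩ := ho.pow (n := r)
      exact ⟨k, by rw [hk]; omega⟩
    rw [Nat.gcd_eq_left hev, Nat.gcd_rec 2, Nat.gcd_rec 2 r]
    congr 1
    clear hdiv hev hr
    induction r with
    | zero => simp
    | succ r ih =>
      obtain ⟨k, hk⟩ := ho.pow (n := r)
      rw [Finset.sum_range_succ, hk]
      omega

end CfsgLib.AutPSp
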